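import Cfsg.Agent.H260.OddM.GeoUCov
import Cfsg.Agent.LieClassical.HermGen

/-!
# Transvections are real in `SU_n(q)`, `n ≥ 3`
-/

set_option autoImplicit false
set_option linter.unusedSectionVars false

namespace Cfsg.Agent.H260.OddM

open Cfsg Cfsg.Geo Cfsg.Agent.H453.OddM Cfsg.Agent.H251.GeoU
open Cfsg.Agent.ClassicalGeometry.UnitTransv Cfsg.Agent.LieClassical.HermBasic
open scoped Matrix MatrixGroups

variable {F : Type*} [Field F] [Fintype F] {n q : ℕ}

theorem act_eq (A : SU n F q) (x : Fin n → F) : act A x = Cfsg.Agent.LieClassical.HermSiegel.act A x := rfl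

/-- conjugation of a transvection -/
theorem conj_utv (hF : Fintype.card F = q ^ 2) (A : SU n F q) {v : Fin n → F} {c : F} (hv : hermForm n F q v v = 0)
    (hc : c + c ^ q = 0) (hv' : hermForm n F q (act A v) (act A v) = 0) :
    A * utv hF v c hv hc * A⁻¹ = utv hF (act A v) c hv' hc := by
  apply ext_act
  intro x
  rw [act_mul, act_mul, act_utv, act_utv, act_add, act_act_inv, act_smul]
  have h : hermForm n F q (act A⁻¹ x) v = hermForm n F q x (act A v) := by
    rw [← herm_act A, act_act_inv]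
  rw [h]

theorem utv_inv (hF : Fintype.card F = q ^ 2) {v : Fin n → F} {c : F} (hv : hermForm n F q v v = 0)
    (hc : c + c ^ q = 0) (hc' : -c + (-c) ^ q = 0) : (utv hF v c hv hc)⁻¹ = utv hF v (-c) hv hc' := by
  rw [inv_eq_iff_mul_eq_one]
  apply ext_act
  intro x
  rw [act_mul, act_utv, act_utv, act_one, herm_add_left, herm_smul_left, hv]
  simp only [mul_zero, add_zero, neg_mul, neg_smul]
  abel

theorem exists_real_utv (hF : Fintype.card F = q ^ 2) (hn : 3 ≤ n) :
    ∃ (v : Fin n → F) (c : F) (hv : hermForm n F q v v = 0) (hc : c + c ^ q = 0), v ≠ 0 ∧ c ≠ 0 ∧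
      IsReal (utv hF v c hv hc) := by
  obtain ⟨c, hc0, hc⟩ := exists_trace_zero_ne hF
  -- an isotropic vector
  obtain ⟨i₀, hi0, hi⟩ := exists_norm_eq_ne hF (c := (-1 : F)) (by rw [neg_pow_q hF, one_pow]) (neg_ne_zero.2 one_ne_zero)
  have h01 : (⟨0, by omega⟩ : Fin n) ≠ ⟨1, by omega⟩ := by
    intro h; simpa using congrArg Fin.val h
  set v : Fin n → F := Pi.single ⟨0, by omega⟩ 1 + Pi.single ⟨1, by omega⟩ i₀ with hvdef
  have hv0 : v ≠ 0 := by
    intro h
    have := congrFun h ⟨0, by omega⟩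
    rw [hvdef, Pi.add_apply, Pi.single_eq_same, Pi.single_eq_of_ne h01, add_zero] at this
    exact one_ne_zero this
  have hv : hermForm n F q v v = 0 := by
    rw [hvdef, herm_add_left, herm_single_left, herm_single_left, Pi.add_apply, Pi.add_apply, Pi.single_eq_same,
      Pi.single_eq_same, Pi.single_eq_of_ne h01, Pi.single_eq_of_ne h01.symm, add_zero, zero_add, one_pow]
    rw [hi]
    ring
  have hbv0 : i₀ • v ≠ 0 := smul_ne_zero hi0 hv0
  have hbv : hermForm n F q (i₀ • v) (i₀ • v) = 0 := by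
    rw [herm_smul_left, herm_smul_right, hv, mul_zero, mul_zero]
  obtain ⟨g, -, hg⟩ := Cfsg.Agent.LieClassical.HermGen.exists_map_iso hF hn le_rfl
    (Cfsg.Agent.LieClassical.HermGen.mem_coordSub_top v) (Cfsg.Agent.LieClassical.HermGen.mem_coordSub_top (i₀ • v))
    hv0 hbv0 hv hbv
  have hg' : act g v = i₀ • v := hg
  have hc' : -c + (-c) ^ q = 0 := by rw [neg_pow_q hF]; linear_combination -hc
  refine ⟨v, c, hv, hc, hv0, hc0, g, ?_⟩
  rw [conj_utv hF g hv hc (by rw [hg']; exact hbv), utv_inv hF hv hc hc']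
  apply ext_act
  intro x
  rw [act_utv, act_utv, hg', herm_smul_right, smul_smul]
  congr 2
  linear_combination (c * hermForm n F q x v) * hi

/-- **a member containing real elements contains a transvection** -/
theorem CovX.exists_tv (hF : Fintype.card F = q ^ 2) (hn : 3 ≤ n) {X : Subgroup (GL (Fin n) F)}
    (h : CovX n F q X) : ∃ (v : Fin n → F) (c : F) (hv : hermForm n F q v v = 0) (hc : c + c ^ q = 0),
      v ≠ 0 ∧ c ≠ 0 ∧ H918.tv hF v c hv hc ∈ X := by
  obtain ⟨v, c, hv, hc, hv0, hc0, hr⟩ := exists_real_utv hF hn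
  obtain ⟨A, hA⟩ := h.real _ hr
  have hv' : hermForm n F q (act A v) (act A v) = 0 := by rw [herm_act, hv]
  refine ⟨act A v, c, hv', hc, ?_, hc0, ?_⟩
  · intro h0
    apply hv0
    rw [← act_inv_act A v, h0, act_zero]
  · rw [conj_utv hF A hv hc hv'] at hA
    exact hA

end Cfsg.Agent.H260.OddM
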